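/-
The triple cover of the McLaughlin group gives the lower bound for the multiplier.
-/
import Cfsg.Agent.H63.LBR
import Cfsg.Agent.AN.Psi
import Cfsg.Agent.AN.Mod.LM0
import Cfsg.Agent.AN.Cert.LA1
import Cfsg.Agent.AN.Cert.LA2

set_option autoImplicit false
set_option maxRecDepth 100000

namespace Cfsg.Agent.H63.McL

open H58 AN

theorem bound {K : Type*} [Group K] {e : ℕ → K} (Q : RuleOK e AN.McL.rels AN.McL.iv) :
    Finite (clL e [1, 2, 3, 4, 5, 6, 7]) ∧ Nat.card (clL e [1, 2, 3, 4, 5, 6, 7]) ≤ 898128000 :=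
  have Q' : RuleOK e AN.McL.rels LA1.iv := rule_iv1 Q (by decide +kernel)
  card_step (card_step (card_step card_le_bot
    (LA1.relIndex_le (Q'.drop (by decide +kernel)) ⊥ (forall_nil _)))
    (LA2.relIndex_le (Q'.drop (by decide +kernel)) _ (mem_clL e _ _ (by decide))))
    (AN.McL.relIndex_le Q _ (mem_clL e _ _ (by decide)))

theorem cl_eq : clL eP [1, 2, 3, 4, 5, 6, 7] = M :=
  le_antisymm (clL_le fun _ _ => eP_memM) (M_le (mem_clL eP _ _ (by decide)))

theorem univ : Univ M AN.McL.rels AN.McL.iv 8 :=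
  (univ_clL (N := 898128000) ruleP (by rw [cl_eq, card_M]) fun K _ e Q => ⟨bound Q, fun x hx => by
    rcases Nat.eq_zero_or_pos x with rfl | h0
    · exact Q.h0 ▸ Subgroup.one_mem _
    · exact mem_clL e _ [x] (by interval_cases x <;> decide) x List.mem_cons_self⟩).congr
    (MulEquiv.subgroupCongr cl_eq)

/-- the letters of the cover -/
noncomputable abbrev f : ℕ → Equiv.Perm ℕ := elN LM0.nets

theorem rule : RuleOK f LM0.rels LM0.iv := LM0.ruleN

theorem f_sq : ∀ x < 8, f x * f x = 1 := fun x h => by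
  have h1 : ∀ x < 8, ivf LM0.iv x = x := by decide +kernel
  have := rule.hinv x (by omega)
  rw [h1 x h] at this
  exact mul_eq_one_iff_eq_inv.2 this

/-- the cover -/
noncomputable abbrev X : Subgroup (Equiv.Perm ℕ) := clL f [1, 2, 3, 4, 5, 6, 7]

theorem f_mem : ∀ x < 8, f x ∈ X := fun x hx => by
  rcases Nat.eq_zero_or_pos x with rfl | h0
  · exact rule.h0 ▸ Subgroup.one_mem _
  · exact mem_clL f _ [x] (by interval_cases x <;> decide) x List.mem_cons_self

/-- the letters as elements of the cover -/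
noncomputable def e (x : ℕ) : X := if h : x < 8 then ⟨f x, f_mem x h⟩ else 1

theorem coe_e {x : ℕ} (h : x < 8) : (e x : Equiv.Perm ℕ) = f x := by rw [e, dif_pos h]

theorem e_ge {x : ℕ} (h : 8 ≤ x) : e x = 1 := by rw [e, dif_neg (not_lt.2 h)]

/-- the central element -/
noncomputable def y : X := ([7, 3, 4, 7, 3, 4].map e).prod

theorem coe_w {w : List ℕ} (h : ∀ x ∈ w, x < 8) : (((w.map e).prod : X) : Equiv.Perm ℕ) = (w.map f).prod := by
  rw [← Subgroup.coe_subtype, map_list_prod, List.map_map]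
  exact congrArg _ (List.map_congr_left fun x hx => coe_e (h x hx))

theorem f11 : f 11 = (f 10)⁻¹ := rule.hinv 10 (by decide)

theorem coe_y : (y : Equiv.Perm ℕ) = f 10 := by
  have h := rule.hrel [7, 3, 4, 7, 3, 4, 11] (by decide +kernel)
  rw [show [7, 3, 4, 7, 3, 4, 11] = [7, 3, 4, 7, 3, 4] ++ [11] from rfl, List.map_append, List.prod_append,
    List.map_singleton, List.prod_singleton, f11, mul_inv_eq_one] at h
  rw [y, coe_w (by decide), h]

theorem y_ne : y ≠ 1 := fun h => by
  have h1 : netPerm LM0.n10 = 1 := coe_y.symm.trans (congrArg Subtype.val h)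
  have h2 : app LM0.n10 LM0.m10_0 = LM0.m10_0 := Nat.eq_of_testBit_eq fun j => by
    rw [testBit_app LM0.n10 (LM0.netsOK 10), h1, Equiv.Perm.one_apply]
  revert h2
  decide +kernel

theorem y_pow : y ^ 3 = 1 := Subtype.ext (by
  have h := rule.hrel [10, 10, 10] (by decide +kernel)
  rw [Subgroup.coe_pow, coe_y]
  simpa [pow_succ, mul_assoc] using h)

theorem y_cen : y ∈ Subgroup.center X := Subgroup.mem_center_iff.2 fun g => Subtype.ext (by
  have h0 : ∀ x ∈ [1, 2, 3, 4, 5, 6, 7], x < 8 ∧ [10, x, 11, x] ∈ LM0.rels := by decide +kernel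
  have : X ≤ Subgroup.centralizer {f 10} := clL_le fun x hx => Subgroup.mem_centralizer_singleton_iff.2 (by
    have h := rule.hrel _ (h0 x hx).2
    simp only [List.map_cons, List.map_nil, List.prod_cons, List.prod_nil, mul_one, f11] at h
    rw [← f_sq x (h0 x hx).1, ← mul_assoc, ← mul_assoc, mul_left_inj, mul_inv_eq_iff_eq_mul] at h
    exact h.symm)
  rw [Subgroup.coe_mul, Subgroup.coe_mul, coe_y]
  exact Subgroup.mem_centralizer_singleton_iff.1 (this g.2))

theorem e_sq : ∀ x, e x * e x = 1 := fun x => by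
  rcases Nat.lt_or_ge x 8 with h | h
  · exact Subtype.ext (by rw [Subgroup.coe_mul, coe_e h]; exact f_sq x h)
  · rw [e_ge h, one_mul]

theorem y_comm : y ∈ commutator X := by
  rw [← Abelianization.ker_of, MonoidHom.mem_ker, y]
  have h := fun x => congrArg Abelianization.of (e_sq x)
  simp only [map_mul, map_one] at h
  simp only [List.map_cons, List.map_nil, List.prod_cons, List.prod_nil, mul_one, map_mul]
  calc _ = (Abelianization.of (e 7) * Abelianization.of (e 7)) * ((Abelianization.of (e 3) * Abelianization.of (e 3)) *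
      (Abelianization.of (e 4) * Abelianization.of (e 4))) := by ac_rfl
    _ = 1 := by rw [h, h, h, one_mul, one_mul]

theorem lb : LB M 3 := by
  have : (Subgroup.zpowers y).Normal := ⟨fun x hx g => by
    rwa [Subgroup.mem_center_iff.1 ((Subgroup.zpowers_le.2 y_cen) hx) g, mul_inv_cancel_right]⟩
  have h3 : Nat.card (Subgroup.zpowers y) = 3 := by
    have := Fact.mk Nat.prime_three
    rw [Nat.card_zpowers, orderOf_eq_prime y_pow y_ne]
  refine h3 ▸ LB.of_rules univ e ?_ _ (Subgroup.zpowers_le.2 y_cen) (Subgroup.zpowers_le.2 y_comm)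
    ⟨?_, fun x hx => ?_, fun r hr => ?_, ruleP.hlt⟩ fun _ => e_ge
  · rw [eq_top_iff]
    rintro ⟨g, hg⟩ -
    induction hg using Subgroup.closure_induction with
    | mem g hg =>
      obtain ⟨x, hx, rfl⟩ := hg
      exact Subgroup.subset_closure ⟨x, Subtype.ext (coe_e ((by decide : ∀ x ∈ [1, 2, 3, 4, 5, 6, 7], x < 8) x hx))⟩
    | one => exact one_mem _
    | mul a b _ _ ha hb => exact mul_mem ha hb
    | inv a _ ha => exact inv_mem ha
  · exact congrArg _ (Subtype.ext ((coe_e (by decide)).trans rule.h0))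
  · rcases Nat.lt_or_ge x 8 with h | h
    · rw [show ivf AN.McL.iv x = x by revert x; decide +kernel]
      exact congrArg _ (eq_inv_of_mul_eq_one_left (e_sq x))
    · rw [show ivf AN.McL.iv x = 0 by revert x; decide +kernel, e_ge h]
      exact congrArg _ ((Subtype.ext ((coe_e (by decide)).trans rule.h0)).trans inv_one.symm)
  · have h1 : (r.map fun x => (e x : X ⧸ Subgroup.zpowers y)) = (r.map e).map (QuotientGroup.mk' _) := by
      rw [List.map_map]; rfl
    rw [h1, ← map_list_prod, QuotientGroup.mk'_apply, QuotientGroup.eq_one_iff]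
    have h2 := (by decide +kernel : ∀ r ∈ AN.McL.rels, (r = [7, 3, 4, 7, 3, 4] ∨ r ∈ LM0.rels) ∧ ∀ x ∈ r, x < 8) r hr
    rcases h2.1 with rfl | h
    · exact Subgroup.mem_zpowers y
    · rw [show (r.map e).prod = 1 from Subtype.ext ((coe_w h2.2).trans (rule.hrel r h))]
      exact one_mem _

end Cfsg.Agent.H63.McL
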