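/-
Tables for words in root elements, and for commutators.
-/
import Cfsg.Agent.H63.Eng2
import Cfsg.Prelude.Def_ChevWords

set_option autoImplicit false
set_option linter.unusedSectionVars false

namespace Cfsg.Agent.H63

open H14 (allL allL_iff anyL anyL_iff beq_iff)
open Matrix
open scoped commutatorElement

section
variable {κ : Type*} [Fintype κ] [DecidableEq κ] {d m D I : ℕ} {mu : ℕ → ℕ → ℕ} {ok : ℕ → Bool}

/-- `A` is the table of the matrix `M` -/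
def TabM (e : κ ≃ Fin d) (D : ℕ) (M : Matrix κ κ (ZMod m)) (A : ℕ) : Prop :=
  OkM d m D A ∧ decM d m D A = (reindex e e M)ᵀ

variable (E : EngOK d m D mu ok I) {e : κ ≃ Fin d}
include E

theorem TabM.mul {M N : Matrix κ κ (ZMod m)} {A B : ℕ} (hA : TabM e D M A) (hB : TabM e D N B) :
    TabM e D (M * N) (mu B A) :=
  let ⟨c1, c2⟩ := E.mul.2 hB.1 hA.1
  ⟨c1, by rw [c2, hA.2, hB.2, ← transpose_mul]; simp⟩

theorem TabM.one : TabM e D (1 : Matrix κ κ (ZMod m)) I := ⟨E.one.1, by rw [E.one.2]; simp⟩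

theorem TabM.of_ent {M : Matrix κ κ (ZMod m)} {A : ℕ} (h : ok A = true)
    (h1 : ∀ i j, (dgt D A (e j * d + e i) : ZMod m) = M i j) : TabM e D M A :=
  ⟨E.ok h, by ext a i; rw [decM, transpose_apply, reindex_apply, submatrix_apply, ← h1]; simp⟩

theorem TabM.unit {M : Matrix κ κ (ZMod m)} {A B : ℕ} (hA : TabM e D M A) (h : ok B = true) (h1 : mu A B = I) :
    ∃ g : GL κ (ZMod m), (g : Matrix κ κ (ZMod m)) = M := by
  have h2 := (E.mul.2 hA.1 (E.ok h)).2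
  rw [h1, E.one.2, hA.2] at h2
  have h3 : reindex e.symm e.symm (decM d m D B)ᵀ * M = 1 := by
    have := congrArg (fun X => reindex e.symm e.symm Xᵀ) h2
    simp only [transpose_mul, transpose_transpose, transpose_one] at this
    rw [← reindexAlgEquiv_apply (ZMod m), ← reindexAlgEquiv_apply (ZMod m), map_one, map_mul] at this
    simpa using this.symm
  exact ⟨⟨M, _, mul_eq_one_comm.1 h3, h3⟩, rfl⟩

theorem mod_of_tab (K : Subgroup (GL κ (ZMod m))) {gens : List ℕ}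
    (h : ∀ A ∈ gens, ∃ g ∈ K, TabM e D (g : Matrix κ κ (ZMod m)) A) : Mod K d m D gens :=
  Mod.sub ((reindexAlgEquiv (ZMod m) (ZMod m) e).toRingEquiv.toMonoidHom.comp (Units.coeHom _)) K
    (fun g _ h => Units.ext ((reindexAlgEquiv (ZMod m) (ZMod m) e).injective (h.trans (map_one _).symm)))
    fun A hA => let ⟨g, a, b⟩ := h A hA; ⟨g, a, b⟩

end

section
variable {d m D I : ℕ} [Fact m.Prime] {mu : ℕ → ℕ → ℕ} {ok : ℕ → Bool} (E : EngOK d m D mu ok I)
  (Δ : Lie.ChevalleyDatum) (e : Δ.Idx ≃ Fin d)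
include E

theorem tab_word : ∀ w : List ((ℕ × ZMod m) × ℕ), (∀ x ∈ w, TabM e D (Δ.x _ x.1.1 x.1.2) x.2) →
    TabM e D (Δ.wordMat _ (w.map Prod.fst)) (w.foldr (fun x acc => mu acc x.2) I)
  | [], _ => TabM.one E
  | x :: w, h => by
    rw [List.forall_mem_cons] at h
    exact h.1.mul E (tab_word w h.2)

theorem mod_words (S : Set (List (ℕ × ZMod m))) {ts : List ((ℕ × ZMod m) × ℕ)}
    (ht : ∀ x ∈ ts, TabM e D (Δ.x _ x.1.1 x.1.2) x.2) {ws : List (List ((ℕ × ZMod m) × ℕ) × ℕ × ℕ)}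
    (h1 : ∀ w ∈ ws, w.1.map Prod.fst ∈ S ∧ ∀ x ∈ w.1, x ∈ ts)
    (h2 : (allL ws fun w => Nat.beq (w.1.foldr (fun x acc => mu acc x.2) I) w.2.1 && ok w.2.2 &&
      Nat.beq (mu w.2.1 w.2.2) I) = true) : Mod (Δ.genSubgroup (ZMod m) S) d m D (ws.map fun w => w.2.1) := by
  simp only [allL_iff, Bool.and_eq_true, beq_iff] at h2
  refine mod_of_tab E (e := e) _ fun A hA => ?_
  obtain ⟨w, hw, rfl⟩ := List.mem_map.1 hA
  have h3 := tab_word E Δ e w.1 fun x hx => ht x ((h1 w hw).2 x hx)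
  rw [(h2 w hw).1.1] at h3
  obtain ⟨g, hg⟩ := h3.unit E (h2 w hw).1.2 (h2 w hw).2
  exact ⟨g, Subgroup.subset_closure ⟨_, (h1 w hw).1, hg⟩, hg ▸ h3⟩

end

/-- commutators lie in the derived group -/
theorem Mod.comm {G : Type*} [Group G] {d m D I : ℕ} {mu : ℕ → ℕ → ℕ} {ok : ℕ → Bool} (E : EngOK d m D mu ok I)
    {gens cs : List ℕ} (hM : Mod G d m D gens) (h : (allL cs fun C => ok C && anyL gens fun A => anyL gens fun B =>
      Nat.beq (mu (mu A B) C) (mu B A)) = true) : Mod (commutator G) d m D cs := by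
  obtain ⟨ρ, h1, h2⟩ := hM
  simp only [allL_iff, anyL_iff, Bool.and_eq_true, beq_iff] at h
  refine Mod.sub ρ _ (fun g _ => h1 g) fun C hC => ?_
  obtain ⟨h3, A, hA, B, hB, h4⟩ := h C hC
  obtain ⟨a, -, a1, a2⟩ := h2 A hA
  obtain ⟨b, -, b1, b2⟩ := h2 B hB
  refine ⟨⁅a, b⁆, Subgroup.commutator_mem_commutator (Subgroup.mem_top a) (Subgroup.mem_top b), E.ok h3, ?_⟩
  have h5 := (E.mul.2 (E.mul.2 a1 b1).1 (E.ok h3)).2
  rw [h4, (E.mul.2 a1 b1).2, (E.mul.2 b1 a1).2, a2, b2, ← transpose_mul, ← transpose_mul, ← map_mul,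
    ← map_mul] at h5
  have h6 : (ρ (b * a)⁻¹)ᵀ * (ρ (b * a))ᵀ = 1 := by
    rw [← transpose_mul, ← map_mul, mul_inv_cancel, map_one, transpose_one]
  rw [← one_mul (decM d m D C), ← h6, Matrix.mul_assoc, ← h5, ← transpose_mul, ← map_mul, commutatorElement_def]
  congr 2
  group

end Cfsg.Agent.H63
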